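import Cfsg.Agent.H7.NPCFunctor
import Cfsg.Agent.H6.Natural

/-! A natural `SL₂(p)`-module gives a section `Qd(p)`. -/

set_option autoImplicit false
open Cfsg Subgroup Matrix
open scoped MatrixGroups

namespace H7

theorem qd_last_row {p : ℕ} {M : SpecialLinearGroup (Fin 3) (ZMod p)} (h : M ∈ qd p) :
    M 2 0 = 0 ∧ M 2 1 = 0 ∧ M 2 2 = 1 := by
  induction h using closure_induction with
  | mem M h => exact h
  | one => simp
  | mul A B _ _ hA hB =>
    simp only [Matrix.SpecialLinearGroup.coe_mul, Matrix.mul_apply, Fin.sum_univ_three, hA.1, hA.2.1,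
      hA.2.2, hB.1, hB.2.1, hB.2.2]
    simp
  | inv A _ hA =>
    have h := fun j => congrFun (congrFun (congrArg (fun X : SpecialLinearGroup (Fin 3) (ZMod p) =>
      (X : Matrix (Fin 3) (Fin 3) (ZMod p))) (mul_inv_cancel A)) 2) j
    simp only [Matrix.SpecialLinearGroup.coe_mul, Matrix.mul_apply, Fin.sum_univ_three, hA.1, hA.2.1,
      hA.2.2, zero_mul, one_mul, zero_add, Matrix.SpecialLinearGroup.coe_one] at h
    refine ⟨?_, ?_, ?_⟩
    · simpa using h 0
    · simpa using h 1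
    · simpa using h 2

/-- The upper left block. -/
def qdBlock (p : ℕ) : qd p →* SL(2, ZMod p) :=
  MonoidHom.mk' (fun M => ⟨!![M.1 0 0, M.1 0 1; M.1 1 0, M.1 1 1], by
    have h := qd_last_row M.2
    have hd := M.1.det_coe
    rw [Matrix.det_fin_three, h.1, h.2.1, h.2.2] at hd
    rw [Matrix.det_fin_two_of]
    linear_combination hd⟩) (by
    intro A B
    have h := qd_last_row B.2
    refine Subtype.ext ?_
    change !![_, _; _, _] = !![_, _; _, _] * !![_, _; _, _]
    ext i j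
    fin_cases i <;> fin_cases j <;>
      simp [Matrix.mul_apply, Fin.sum_univ_three, Fin.sum_univ_two, h.1, h.2.1])

theorem qdBlock_00 {p : ℕ} (M : qd p) : qdBlock p M 0 0 = M.1 0 0 := rfl
theorem qdBlock_01 {p : ℕ} (M : qd p) : qdBlock p M 0 1 = M.1 0 1 := rfl
theorem qdBlock_10 {p : ℕ} (M : qd p) : qdBlock p M 1 0 = M.1 1 0 := rfl
theorem qdBlock_11 {p : ℕ} (M : qd p) : qdBlock p M 1 1 = M.1 1 1 := rfl

variable {G : Type*} [Group G] {p : ℕ}

theorem exists_two_elt_preimage [Finite G] {H : Type*} [Group H] (f : G →* H) {z : H}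
    (hz : z ^ 2 = 1) (hf : z ∈ f.range) : ∃ t : G, f t = z ∧ IsPGroup 2 (zpowers t) := by
  obtain ⟨t, rfl⟩ := hf
  obtain ⟨k, m, hm, hk⟩ := Nat.exists_eq_two_pow_mul_odd (orderOf_pos t).ne'
  refine ⟨t ^ m, ?_, ?_⟩
  · obtain ⟨j, rfl⟩ := hm
    rw [map_pow, pow_succ, pow_mul, hz, one_pow, one_mul]
  · have h1 : (t ^ m) ^ 2 ^ k = 1 := by
      rw [← pow_mul, mul_comm, ← hk, pow_orderOf_eq_one]
    obtain ⟨j, -, hj⟩ := (Nat.dvd_prime_pow Nat.prime_two).mp (orderOf_dvd_of_pow_eq_one h1)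
    exact IsPGroup.of_card (by rw [Nat.card_zpowers, hj])

theorem NatPair_involves_qd [Finite G] [hp : Fact p.Prime] (hp2 : p ≠ 2) {V : Subgroup G}
    (hV : IsElementaryAbelian p V) {x y e₁ e₂ : G}
    (hx : x ∈ normalizer (V : Set G)) (hy : y ∈ normalizer (V : Set G)) (he₁ : e₁ ∈ V)
    (he₂ : e₂ ∈ V) (h : H6.NatPair x y e₁ e₂) : H6.Involves (⊤ : Subgroup G) (qd p) := by
  have : Fact (Nat.Prime 2) := ⟨Nat.prime_two⟩
  obtain ⟨hind, f, hf, -, -, hact, -⟩ := h.exists_hom hV hx hy he₁ he₂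
  have hLN : closure ({x, y} : Set G) ≤ normalizer (V : Set G) := H6.closure_pair_le hx hy
  generalize closure ({x, y} : Set G) = L at f hf hact hLN
  obtain ⟨t, ht, ht2⟩ := exists_two_elt_preimage f (z := -1) (by simp) (hf _)
  set N : Subgroup L := (zpowers (-1 : SL(2, ZMod p))).comap f with hN
  have : (zpowers (-1 : SL(2, ZMod p))).Normal := by
    refine ⟨fun n hn g => ?_⟩
    obtain ⟨k, rfl⟩ := hn
    have : g * (-1) ^ k * g⁻¹ = (-1) ^ k := by
      rw [((Commute.neg_one_right g).zpow_right k).eq, mul_inv_cancel_right]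
    simp only
    rw [this]; exact ⟨k, rfl⟩
  have hNn : N.Normal := inferInstance
  have htN : zpowers t ≤ N := zpowers_le.mpr (by rw [hN, mem_comap, ht]; exact mem_zpowers _)
  obtain ⟨T, hT⟩ := (ht2.comap_subtype (K := N)).exists_le_sylow
  have hfr := Sylow.normalizer_sup_eq_top T
  set T' : Subgroup L := (T : Subgroup N).map N.subtype with hT'
  have htT : t ∈ T' := ⟨⟨t, htN (mem_zpowers t)⟩, hT (mem_zpowers t), rfl⟩
  have hT'2 : IsPGroup 2 T' := T.isPGroup'.map _
  set L₁ := normalizer (T' : Set L) with hL₁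
  have hsurj : ∀ A : SL(2, ZMod p), ∃ l ∈ L₁, f l = A := by
    have : L₁.map f = ⊤ := by
      have h1 : N.map f ≤ L₁.map f := by
        refine (map_comap_le _ _).trans (zpowers_le.mpr ⟨t, le_normalizer htT, ht⟩)
      have h2 := congrArg (Subgroup.map f) hfr
      rw [Subgroup.map_sup, sup_eq_left.mpr h1, map_top_of_surjective f hf] at h2
      exact h2
    intro A
    exact (this ▸ mem_top A : A ∈ L₁.map f)
  -- vectors
  set E₁ := H6.EV.mk hV e₁ he₁
  set E₂ := H6.EV.mk hV e₂ he₂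
  have hval : ∀ s u : ZMod p, (s • E₁ + u • E₂).val = e₁ ^ s.val * e₂ ^ u.val := by
    intro s u
    rw [H6.EV.val_add, H6.EV.val_smul, H6.EV.val_smul]; rfl
  have hrep : ∀ (l : L) (s u : ZMod p), (l : G) * (s • E₁ + u • E₂).val * (l : G)⁻¹ =
      ((f l 0 0 * s + f l 0 1 * u) • E₁ + (f l 1 0 * s + f l 1 1 * u) • E₂).val := by
    intro l s u
    have h1 : H6.EV.rep hV ⟨l, hLN l.2⟩ E₁ = f l 0 0 • E₁ + f l 1 0 • E₂ :=
      H6.EV.ext (by rw [hval, H6.EV.val_rep]; exact (hact l).1)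
    have h2 : H6.EV.rep hV ⟨l, hLN l.2⟩ E₂ = f l 0 1 • E₁ + f l 1 1 • E₂ :=
      H6.EV.ext (by rw [hval, H6.EV.val_rep]; exact (hact l).2)
    have h3 := H6.EV.val_rep (hV := hV) ⟨l, hLN l.2⟩ (s • E₁ + u • E₂)
    rw [map_add, map_smul, map_smul, h1, h2] at h3
    rw [← h3]
    congr 1
    module
  -- `L₁` meets the natural module trivially
  have hdisj : ∀ l ∈ L₁, ∀ s u : ZMod p, (s • E₁ + u • E₂).val * (l : G) = 1 →
      l = 1 ∧ s = 0 ∧ u = 0 := by
    intro l hl s u hsu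
    set w := s • E₁ + u • E₂ with hw
    have hlw : (l : G) = w.val⁻¹ := eq_inv_of_mul_eq_one_right hsu
    have h1 : (t : G) * w.val * (t : G)⁻¹ = w.val⁻¹ := by
      rw [hw, hrep, ht, ← H6.EV.val_neg]
      congr 1
      simp [add_comm]
    have h2 : l⁻¹ * t * l * t⁻¹ ∈ T' := by
      refine mul_mem ?_ (inv_mem htT)
      have := (mem_normalizer_iff.mp (inv_mem hl) t).mp htT
      simpa using this
    have h3 : ((l⁻¹ * t * l * t⁻¹ : L) : G) = w.val ^ 2 := by
      simp only [Subgroup.coe_mul, Subgroup.coe_inv, hlw, inv_inv]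
      have : (t : G) * w.val⁻¹ * (t : G)⁻¹ = w.val := by
        have h5 := congrArg Inv.inv h1
        rw [inv_inv] at h5
        rw [← h5]; conv_lhs => rw [h5]
        group
      rw [pow_two, mul_assoc, mul_assoc, ← mul_assoc (t : G), this]
    obtain ⟨k, hk⟩ := hT'2 ⟨_, h2⟩
    have hk' : w.val ^ (2 * 2 ^ k) = 1 := by
      rw [pow_mul, ← h3]
      exact congrArg (fun z : T' => ((z : L) : G)) hk
    have hpw : w.val ^ p = 1 := by
      rw [← H6.EV.val_natCast_smul, ZMod.natCast_self, zero_smul, H6.EV.val_zero]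
    have hcop : Nat.Coprime (2 * 2 ^ k) p := by
      rw [← pow_succ']
      exact ((Nat.coprime_primes Nat.prime_two hp.out).mpr hp2.symm).pow_left _
    have hw1 : w.val = 1 := by
      rw [← pow_one w.val, ← hcop]
      exact pow_gcd_eq_one.mpr ⟨hk', hpw⟩
    refine ⟨Subtype.ext (by rw [hlw, hw1, inv_one]; rfl), hind s u ?_⟩
    rw [← hval, ← hw, hw1]
  -- the pullback
  set P : Subgroup (L₁ × qd p) :=
    ((f.comp L₁.subtype).comp (MonoidHom.fst _ _)).eqLocus
      ((qdBlock p).comp (MonoidHom.snd _ _)) with hP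
  have hPm : ∀ z : P, f z.1.1 = qdBlock p z.1.2 := fun z => z.2
  let ψ : P →* G := MonoidHom.mk'
    (fun z => ((z.1.2.1 0 2) • E₁ + (z.1.2.1 1 2) • E₂).val * ((z.1.1 : L) : G)) (by
      intro a b
      have hb := qd_last_row b.1.2.2
      have h1 := hrep a.1.1 (b.1.2.1 0 2) (b.1.2.1 1 2)
      rw [hPm a, qdBlock_00, qdBlock_01, qdBlock_10, qdBlock_11, mul_inv_eq_iff_eq_mul] at h1
      simp only [Subgroup.coe_mul, Prod.fst_mul, Prod.snd_mul, Matrix.SpecialLinearGroup.coe_mul,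
        Matrix.mul_apply, Fin.sum_univ_three, hb.2.2]
      rw [mul_assoc, ← mul_assoc ((a.1.1 : L) : G), h1, ← mul_assoc, ← mul_assoc, ← mul_assoc,
        ← H6.EV.val_add]
      congr 3
      module)
  have hψ : Function.Injective ψ := by
    rw [injective_iff_map_eq_one]
    intro z hz
    obtain ⟨h1, h2, h3⟩ := hdisj z.1.1 z.1.1.2 _ _ hz
    have h4 := hPm z
    rw [h1, map_one] at h4
    have hr := qd_last_row z.1.2.2
    refine Subtype.ext (Prod.ext (Subtype.ext h1) (Subtype.ext ?_))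
    have h00 := qdBlock_00 z.1.2
    have h01 := qdBlock_01 z.1.2
    have h10 := qdBlock_10 z.1.2
    have h11 := qdBlock_11 z.1.2
    rw [← h4] at h00 h01 h10 h11
    ext i j
    fin_cases i <;> fin_cases j
    · exact h00.symm
    · exact h01.symm
    · exact h2
    · exact h10.symm
    · exact h11.symm
    · exact h3
    · exact hr.1
    · exact hr.2.1
    · exact hr.2.2
  have hinv : H6.Involves (⊤ : Subgroup P) (qd p) := by
    refine H6.Involves.of_surjective (φ := (MonoidHom.snd _ _).comp P.subtype) ?_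
      ⟨⊤, le_rfl, (⊤ : Subgroup (qd p)).subtype, fun z => ⟨⟨z, trivial⟩, rfl⟩⟩
    intro M
    obtain ⟨l, hl, hlM⟩ := hsurj (qdBlock p M)
    exact ⟨⟨(⟨l, hl⟩, M), hlM⟩, rfl⟩
  exact (hinv.map_of_injective hψ).mono le_top

theorem qstable_of_not_involves_qd [Finite G] [Fact p.Prime] (hp2 : p ≠ 2)
    (h : ¬ H6.Involves (⊤ : Subgroup G) (qd p)) : QStable p G := by
  refine qstable_of_forall fun B _ hB => ?_
  have : (B.map (QuotientGroup.mk' (phiS p B))).Normal :=
    Subgroup.Normal.map inferInstance _ (QuotientGroup.mk'_surjective _)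
  refine isPStableOn_of_phiS B hB ?_
  by_contra hcon
  have hV : IsElementaryAbelian p (B.map (QuotientGroup.mk' (phiS p B))) :=
    ea_map_of_phiS_le (by rw [QuotientGroup.ker_mk'])
  obtain ⟨x, y, e₁, he₁, e₂, he₂, hn⟩ := H6.natPair_of_not_isPStableOn hp2 hV hcon
  exact h (H6.Involves.of_surjective (QuotientGroup.mk'_surjective _)
    (NatPair_involves_qd hp2 hV (le_normalizer_of_normal (mem_top x))
      (le_normalizer_of_normal (mem_top y)) he₁ he₂ hn))

end H7
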